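import Cfsg.Agent.H343.A9Kill

/-!
# The elimination for S3339: the alternating groups (helper343)
-/

set_option autoImplicit false
set_option linter.unusedVariables false
set_option linter.unusedSectionVars false

namespace Cfsg.Agent.H343.A9

open Equiv Equiv.Perm Subgroup Cfsg Cfsg.Agent.H343.Red

/-! ### degree 10 -/

theorem four_sq : ∀ v w : Perm (Fin 4), v * v = 1 → sign v = 1 → w * w = 1 → sign w = 1 →
    (v * w) * (v * w) = 1 := by
  decide +kernel

/-- involutions of sign one supported on the last four points -/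
def KV : Subgroup (alternatingGroup (Fin 10)) where
  carrier := {k | (∀ i : Fin 10, ¬ 6 ≤ i → (k : Perm (Fin 10)) i = i) ∧ (k : Perm (Fin 10)) * k = 1}
  one_mem' := ⟨fun i _ => rfl, mul_one 1⟩
  inv_mem' := by
    rintro k ⟨h1, h2⟩
    refine ⟨fun i hi => ?_, ?_⟩
    · change (k : Perm (Fin 10))⁻¹ i = i
      rw [Perm.inv_eq_iff_eq, h1 i hi]
    · change (k : Perm (Fin 10))⁻¹ * (k : Perm (Fin 10))⁻¹ = 1
      rw [← mul_inv_rev, h2, inv_one]
  mul_mem' := by
    rintro k l ⟨hk1, hk2⟩ ⟨hl1, hl2⟩
    have hp : ∀ {k : Perm (Fin 10)}, (∀ i : Fin 10, ¬ 6 ≤ i → k i = i) → ∀ i : Fin 10, 6 ≤ k i ↔ 6 ≤ i := by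
      intro k hk i
      constructor
      · intro h
        by_contra hi
        rw [hk i hi] at h
        exact hi h
      · intro h
        by_contra hi
        have h1 := hk _ hi
        have h2 := k.injective h1
        rw [h2] at hi
        exact hi h
    have hs : ∀ {k : Perm (Fin 10)}, (∀ i : Fin 10, ¬ 6 ≤ i → k i = i) → ∀ i : Fin 10, k i ≠ i → 6 ≤ i := by
      intro k hk i hi
      by_contra h
      exact hi (hk i h)
    let p : Fin 10 → Prop := fun i => 6 ≤ i
    let e : {i : Fin 10 // p i} ≃ Fin 4 := Fintype.equivFinOfCardEq (by decide)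
    let K := subtypePerm (k : Perm (Fin 10)) (p := p) (hp hk1)
    let L := subtypePerm (l : Perm (Fin 10)) (p := p) (hp hl1)
    have hoK : ofSubtype K = (k : Perm (Fin 10)) := ofSubtype_subtypePerm (hp hk1) (hs hk1)
    have hoL : ofSubtype L = (l : Perm (Fin 10)) := ofSubtype_subtypePerm (hp hl1) (hs hl1)
    have hKK : K * K = 1 := by
      apply ofSubtype_injective
      rw [map_mul, hoK, hk2, map_one]
    have hLL : L * L = 1 := by
      apply ofSubtype_injective
      rw [map_mul, hoL, hl2, map_one]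
    have hsK : sign K = 1 := by
      rw [← sign_ofSubtype, hoK]
      exact mem_alternatingGroup.mp k.2
    have hsL : sign L = 1 := by
      rw [← sign_ofSubtype, hoL]
      exact mem_alternatingGroup.mp l.2
    have key : (K * L) * (K * L) = 1 := by
      apply (e.permCongrHom).injective
      rw [map_mul, map_mul, map_one]
      refine four_sq _ _ ?_ ?_ ?_ ?_
      · rw [← map_mul, hKK, map_one]
      · change sign (e.permCongr K) = 1
        rw [sign_permCongr, hsK]
      · rw [← map_mul, hLL, map_one]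
      · change sign (e.permCongr L) = 1
        rw [sign_permCongr, hsL]
    refine ⟨fun i hi => ?_, ?_⟩
    · change (k : Perm (Fin 10)) ((l : Perm (Fin 10)) i) = i
      rw [hl1 i hi, hk1 i hi]
    · have := congrArg ofSubtype key
      rw [map_mul, map_mul, map_one, hoK, hoL] at this
      exact this

theorem kill_alt10 (h : CoreF (alternatingGroup (Fin 10))) : False := by
  let x : alternatingGroup (Fin 10) := ⟨swap 0 1 * swap 1 2 * (swap 3 4 * swap 4 5), by
    rw [mem_alternatingGroup]; decide +kernel⟩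
  have hx3 : x ^ 3 = 1 := by decide +kernel
  have hx1 : x ≠ 1 := by decide +kernel
  have hfix : ∀ i : Fin 10, 6 ≤ i ↔ (x : Perm (Fin 10)) i = i := by decide +kernel
  have h1 := h.eq_bot (x := x) (orderOf_eq_prime hx3 hx1) (K := KV) ?_ ?_ ?_
  · let k : alternatingGroup (Fin 10) := ⟨swap 6 7 * swap 8 9, by rw [mem_alternatingGroup]; decide +kernel⟩
    have hk : k ∈ KV := by
      refine ⟨?_, ?_⟩
      · change ∀ i : Fin 10, ¬ 6 ≤ i → (swap (6 : Fin 10) 7 * swap 8 9 : Perm (Fin 10)) i = i
        decide +kernel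
      · change (swap (6 : Fin 10) 7 * swap 8 9) * (swap 6 7 * swap 8 9) = 1
        decide +kernel
    rw [h1, mem_bot] at hk
    exact absurd hk (by decide +kernel)
  · intro k hk
    rw [mem_centralizer_singleton_iff]
    apply Subtype.ext
    change (k : Perm (Fin 10)) * (x : Perm (Fin 10)) = (x : Perm (Fin 10)) * k
    refine (Perm.Disjoint.commute fun i => ?_).eq
    by_cases hi : 6 ≤ i
    · exact Or.inr ((hfix i).mp hi)
    · exact Or.inl (hk.1 i hi)
  · intro c hc k hk
    rw [mem_centralizer_singleton_iff] at hc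
    have hc' : (c : Perm (Fin 10)) * (x : Perm (Fin 10)) = (x : Perm (Fin 10)) * c := congrArg Subtype.val hc
    refine ⟨fun i hi => ?_, ?_⟩
    · change (c : Perm (Fin 10)) ((k : Perm (Fin 10)) ((c : Perm (Fin 10))⁻¹ i)) = i
      have hci : (c : Perm (Fin 10)) ((c : Perm (Fin 10))⁻¹ i) = i := (c : Perm (Fin 10)).apply_symm_apply i
      have h2 : ¬ 6 ≤ (c : Perm (Fin 10))⁻¹ i := by
        intro h3
        apply hi
        rw [hfix] at h3 ⊢
        have h4 : (c : Perm (Fin 10)) ((x : Perm (Fin 10)) ((c : Perm (Fin 10))⁻¹ i)) =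
            (x : Perm (Fin 10)) ((c : Perm (Fin 10)) ((c : Perm (Fin 10))⁻¹ i)) :=
          congrArg (fun σ : Perm (Fin 10) => σ ((c : Perm (Fin 10))⁻¹ i)) hc'
        rw [h3, hci] at h4
        exact h4.symm
      rw [hk.1 _ h2, hci]
    · have h5 : (k : Perm (Fin 10)) * k = 1 := hk.2
      change ((c : Perm (Fin 10)) * k * (c : Perm (Fin 10))⁻¹) * ((c : Perm (Fin 10)) * k * (c : Perm (Fin 10))⁻¹) = 1
      calc _ = (c : Perm (Fin 10)) * (k * k) * (c : Perm (Fin 10))⁻¹ := by group
        _ = 1 := by rw [h5, mul_one, mul_inv_cancel]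
  · intro h3
    have : Fact (Nat.Prime 3) := ⟨Nat.prime_three⟩
    obtain ⟨k, hk⟩ := exists_prime_orderOf_dvd_card' (G := KV) 3 h3
    have h4 : k ^ 2 = 1 := by
      rw [pow_two]
      apply Subtype.ext
      apply Subtype.ext
      exact k.2.2
    have h5 := orderOf_dvd_of_pow_eq_one h4
    rw [hk] at h5
    norm_num at h5

/-! ### degree 11 and the symmetric group of degree 9 -/

theorem kill_alt11 (h : C9 (alternatingGroup (Fin 11))) : False := by
  let x : alternatingGroup (Fin 11) := ⟨swap 0 1 * swap 1 2, by rw [mem_alternatingGroup]; decide +kernel⟩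
  let y : alternatingGroup (Fin 11) := ⟨swap 3 4 * swap 4 5, by rw [mem_alternatingGroup]; decide +kernel⟩
  let z : alternatingGroup (Fin 11) := ⟨swap 6 7 * swap 7 8, by rw [mem_alternatingGroup]; decide +kernel⟩
  let g : alternatingGroup (Fin 11) := ⟨swap 0 1 * swap 9 10, by rw [mem_alternatingGroup]; decide +kernel⟩
  refine h.no_three (x := x) (y := y) (z := z) (g := g) (by decide +kernel) (by decide +kernel)
    (by decide +kernel) (by decide +kernel) (by decide +kernel) (by decide +kernel) ?_ (by decide +kernel)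
    (by decide +kernel) (by decide +kernel)
  intro a b c ha hb hc habc
  have e0 := congrArg (fun σ : alternatingGroup (Fin 11) => (σ : Perm (Fin 11)) 0) habc
  have e1 := congrArg (fun σ : alternatingGroup (Fin 11) => (σ : Perm (Fin 11)) 3) habc
  have e2 := congrArg (fun σ : alternatingGroup (Fin 11) => (σ : Perm (Fin 11)) 6) habc
  have key : ∀ a b c : Fin 3, ((x ^ (a : ℕ) * y ^ (b : ℕ) * z ^ (c : ℕ) : alternatingGroup (Fin 11)) : Perm (Fin 11)) = 1 →
      (a : ℕ) = 0 ∧ (b : ℕ) = 0 ∧ (c : ℕ) = 0 := by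
    decide +kernel
  exact key ⟨a, ha⟩ ⟨b, hb⟩ ⟨c, hc⟩ (congrArg Subtype.val habc)

theorem kill_sym9 (h : C9 (Perm (Fin 9))) : False := by
  let x : Perm (Fin 9) := swap 0 1 * swap 1 2
  let y : Perm (Fin 9) := swap 3 4 * swap 4 5
  let z : Perm (Fin 9) := swap 6 7 * swap 7 8
  let g : Perm (Fin 9) := swap 0 1
  refine h.no_three (x := x) (y := y) (z := z) (g := g) (by decide +kernel) (by decide +kernel)
    (by decide +kernel) (by decide +kernel) (by decide +kernel) (by decide +kernel) ?_ (by decide +kernel)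
    (by decide +kernel) (by decide +kernel)
  intro a b c ha hb hc habc
  have key : ∀ a b c : Fin 3, (x ^ (a : ℕ) * y ^ (b : ℕ) * z ^ (c : ℕ) : Perm (Fin 9)) = 1 →
      (a : ℕ) = 0 ∧ (b : ℕ) = 0 ∧ (c : ℕ) = 0 := by
    decide +kernel
  exact key ⟨a, ha⟩ ⟨b, hb⟩ ⟨c, hc⟩ habc

end Cfsg.Agent.H343.A9
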