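import Mathlib

/-!
# The normalizer in `A₉` of the group generated by three disjoint 3-cycles (helper343, for S3339)
-/

set_option autoImplicit false

namespace Cfsg.Agent.H343.A9

open Equiv Equiv.Perm Subgroup

/-- nine points: three blocks -/
abbrev X := Fin 3 × ZMod 3

/-- translations -/
def tr (v : Fin 3 → ZMod 3) : Perm X := Equiv.prodCongrRight fun i => Equiv.addRight (v i)

theorem tr_apply (v : Fin 3 → ZMod 3) (i : Fin 3) (x : ZMod 3) : tr v (i, x) = (i, x + v i) := rfl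

theorem tr_add (v w : Fin 3 → ZMod 3) : tr (v + w) = tr v * tr w := by
  ext1 ⟨i, x⟩
  rw [Perm.mul_apply, tr_apply, tr_apply, tr_apply, Pi.add_apply, add_comm (v i), add_assoc]

theorem tr_zero : tr 0 = 1 := by
  ext1 ⟨i, x⟩
  rw [tr_apply, Pi.zero_apply, add_zero, Perm.one_apply]

theorem tr_neg (v : Fin 3 → ZMod 3) : tr (-v) = (tr v)⁻¹ := by
  rw [eq_inv_iff_mul_eq_one, ← tr_add, neg_add_cancel, tr_zero]

theorem tr_inj {v w : Fin 3 → ZMod 3} (h : tr v = tr w) : v = w := by
  funext i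
  have h1 := congrArg (fun g : Perm X => (g (i, 0)).2) h
  simpa [tr_apply] using h1

/-- the group of translations -/
def K : Subgroup (Perm X) where
  carrier := {g | ∃ v, g = tr v}
  one_mem' := ⟨0, tr_zero.symm⟩
  mul_mem' := by
    rintro _ _ ⟨v, rfl⟩ ⟨w, rfl⟩
    exact ⟨v + w, (tr_add v w).symm⟩
  inv_mem' := by
    rintro _ ⟨v, rfl⟩
    exact ⟨-v, (tr_neg v).symm⟩

theorem mem_K {g : Perm X} : g ∈ K ↔ ∃ v, g = tr v := Iff.rfl

theorem card_K : Nat.card K = 27 := by
  have e : (Fin 3 → ZMod 3) ≃ K := Equiv.ofBijective (fun v => ⟨tr v, v, rfl⟩)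
    ⟨fun v w h => tr_inj (congrArg Subtype.val h), fun ⟨g, v, hv⟩ => ⟨v, Subtype.ext hv.symm⟩⟩
  rw [← Nat.card_congr e, Nat.card_eq_fintype_card]
  decide

/-- the elements of the wreath product -/
def gg (σ : Perm (Fin 3)) (f : Fin 3 → Perm (ZMod 3)) : Perm X :=
  (Equiv.prodCongrLeft fun _ => σ) * Equiv.prodCongrRight f

theorem gg_apply (σ : Perm (Fin 3)) (f : Fin 3 → Perm (ZMod 3)) (i : Fin 3) (x : ZMod 3) :
    gg σ f (i, x) = (σ i, f i x) := rfl

theorem gg_inj {σ σ' : Perm (Fin 3)} {f f' : Fin 3 → Perm (ZMod 3)} (h : gg σ f = gg σ' f') : σ = σ' ∧ f = f' := by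
  have h1 : ∀ i x, (σ i, f i x) = (σ' i, f' i x) := fun i x => by
    have := congrArg (fun g : Perm X => g (i, x)) h
    simpa [gg_apply] using this
  refine ⟨Equiv.ext fun i => congrArg Prod.fst (h1 i 0), funext fun i => Equiv.ext fun x => congrArg Prod.snd (h1 i x)⟩

theorem sign_gg (σ : Perm (Fin 3)) (f : Fin 3 → Perm (ZMod 3)) : sign (gg σ f) = sign σ * ∏ i, sign (f i) := by
  rw [gg, map_mul, sign_prodCongrLeft, sign_prodCongrRight, Finset.prod_const]
  congr 1
  have : (Finset.univ : Finset (ZMod 3)).card = 3 := rfl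
  rw [this]
  generalize sign σ = u
  revert u
  decide

/-- the sign of a permutation of `ZMod 3` as an element of `ZMod 3` -/
def sg (f : Perm (ZMod 3)) : ZMod 3 := (((sign f : ℤˣ) : ℤ) : ZMod 3)

theorem f_add : ∀ (f : Perm (ZMod 3)) (x t : ZMod 3), f (x + t) = f x + sg f * t := by decide +kernel

/-- the action of `gg σ f` on the translations -/
def ac (σ : Perm (Fin 3)) (s : Fin 3 → ZMod 3) (v : Fin 3 → ZMod 3) : Fin 3 → ZMod 3 :=
  fun k => s (σ.symm k) * v (σ.symm k)

theorem gg_tr (σ : Perm (Fin 3)) (f : Fin 3 → Perm (ZMod 3)) (v : Fin 3 → ZMod 3) :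
    gg σ f * tr v = tr (ac σ (fun i => sg (f i)) v) * gg σ f := by
  ext1 ⟨i, x⟩
  rw [Perm.mul_apply, Perm.mul_apply, tr_apply, gg_apply, gg_apply, tr_apply, f_add, ac, Equiv.symm_apply_apply]

theorem gg_conj (σ : Perm (Fin 3)) (f : Fin 3 → Perm (ZMod 3)) (v : Fin 3 → ZMod 3) :
    gg σ f * tr v * (gg σ f)⁻¹ = tr (ac σ (fun i => sg (f i)) v) := by
  rw [gg_tr, mul_inv_cancel_right]

theorem gg_mem (σ : Perm (Fin 3)) (f : Fin 3 → Perm (ZMod 3)) : gg σ f ∈ normalizer (K : Set (Perm X)) := by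
  have key : ∀ g ∈ K, gg σ f * g * (gg σ f)⁻¹ ∈ K := by
    rintro _ ⟨v, rfl⟩
    exact ⟨_, gg_conj σ f v⟩
  rw [Subgroup.mem_normalizer_iff]
  have h1 : K.map (MulAut.conj (gg σ f)).toMonoidHom = K := by
    apply Subgroup.eq_of_le_of_card_ge
    · rintro _ ⟨a, ha, rfl⟩; exact key a ha
    · exact (Nat.card_congr (K.equivMapOfInjective _ (MulAut.conj (gg σ f)).injective).toEquiv).le
  intro a
  refine ⟨key a, fun ha => ?_⟩
  rw [← h1] at ha
  obtain ⟨b, hb, hab⟩ := ha
  have : b = a := (MulAut.conj (gg σ f)).injective hab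
  rwa [← this]

theorem exists_gg {g : Perm X} (hg : g ∈ normalizer (K : Set (Perm X))) : ∃ σ f, g = gg σ f := by
  have h1 : ∀ i x, (g (i, x + 1)).1 = (g (i, x)).1 := by
    intro i x
    obtain ⟨w, hw⟩ := (Subgroup.mem_normalizer_iff.mp hg (tr (Pi.single i 1))).mp ⟨_, rfl⟩
    have h2 : g * tr (Pi.single i 1) = tr w * g := by rw [← hw]; group
    have h3 := congrArg (fun k : Perm X => (k (i, x)).1) h2
    simpa [Perm.mul_apply, tr_apply, Pi.single_eq_same, tr] using h3
  have h2 : ∀ i x, (g (i, x)).1 = (g (i, 0)).1 := by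
    intro i x
    have a1 := h1 i 0
    have a2 := h1 i 1
    rw [zero_add] at a1
    fin_cases x
    · rfl
    · exact a1
    · exact (show (g (i, (1 : ZMod 3) + 1)).1 = _ from a2).trans a1
  have hinj : Function.Injective fun i => (g (i, 0)).1 := by
    intro i j hij
    by_contra hne
    have h3 : Function.Injective (fun p : Bool × ZMod 3 => (g (bif p.1 then i else j, p.2)).2) := by
      rintro ⟨a, x⟩ ⟨b, y⟩ h
      have h4 : g (bif a then i else j, x) = g (bif b then i else j, y) := by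
        apply Prod.ext
        · rw [h2, h2 (bif b then i else j)]
          cases a <;> cases b
          · rfl
          · exact hij.symm
          · exact hij
          · rfl
        · exact h
      have h5 := g.injective h4
      have h6 : (bif a then i else j) = (bif b then i else j) := congrArg Prod.fst h5
      have h7 : x = y := congrArg Prod.snd h5
      have h8 : a = b := by
        cases a <;> cases b
        · rfl
        · exact absurd h6.symm hne
        · exact absurd h6 hne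
        · rfl
      rw [h7, h8]
    have h4 := Fintype.card_le_of_injective _ h3
    rw [Fintype.card_prod, Fintype.card_bool, ZMod.card] at h4
    omega
  have hf : ∀ i, Function.Injective fun x => (g (i, x)).2 := by
    intro i x y h
    have : g (i, x) = g (i, y) := Prod.ext (by rw [h2, h2 i y]) h
    exact congrArg Prod.snd (g.injective this)
  let σ : Perm (Fin 3) := Equiv.ofBijective _ (Finite.injective_iff_bijective.mp hinj)
  let f : Fin 3 → Perm (ZMod 3) := fun i => Equiv.ofBijective _ (Finite.injective_iff_bijective.mp (hf i))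
  refine ⟨σ, f, ?_⟩
  ext1 ⟨i, x⟩
  rw [gg_apply]
  exact Prod.ext (h2 i x) rfl

theorem card_normalizer : Nat.card (normalizer (K : Set (Perm X))) = 1296 := by
  have e : (Perm (Fin 3) × (Fin 3 → Perm (ZMod 3))) ≃ normalizer (K : Set (Perm X)) :=
    Equiv.ofBijective (fun p => ⟨gg p.1 p.2, gg_mem _ _⟩)
      ⟨fun p q h => by
        obtain ⟨h1, h2⟩ := gg_inj (congrArg Subtype.val h)
        exact Prod.ext h1 h2, fun ⟨g, hg⟩ => by
        obtain ⟨σ, f, rfl⟩ := exists_gg hg
        exact ⟨(σ, f), rfl⟩⟩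
  rw [← Nat.card_congr e, Nat.card_eq_fintype_card, Fintype.card_prod, Fintype.card_perm, Fintype.card_fun,
    Fintype.card_perm, ZMod.card, Fintype.card_fin]
  rfl

/-! ### finite checks -/

theorem chk_refl : ∀ (σ : Perm (Fin 3)) (s : Fin 3 → Bool),
    (sign σ * ∏ i, (if s i then 1 else -1 : ℤˣ)) = 1 → (∃ i, σ i ≠ i ∨ s i = false) →
    (Finset.univ.filter fun v : Fin 3 → ZMod 3 => ac σ (fun i => if s i then 1 else -1) v = v).card ≤ 3 := by
  decide +kernel

theorem chk_inv : ∀ (σ : Perm (Fin 3)) (s : Fin 3 → Bool),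
    (sign σ * ∏ i, (if s i then 1 else -1 : ℤˣ)) = 1 →
    ∃ v : Fin 3 → ZMod 3, ac σ (fun i => if s i then 1 else -1) v ≠ -v := by
  decide +kernel

theorem chk_irr : ∀ v : Fin 3 → ZMod 3, v ≠ 0 → ∀ k : Fin 3, ∃ (σ : Perm (Fin 3)) (s : Fin 3 → Bool)
    (σ' : Perm (Fin 3)) (s' : Fin 3 → Bool), (sign σ * ∏ i, (if s i then 1 else -1 : ℤˣ)) = 1 ∧
    (sign σ' * ∏ i, (if s' i then 1 else -1 : ℤˣ)) = 1 ∧
    ac σ (fun i => if s i then 1 else -1) v + ac σ' (fun i => if s' i then 1 else -1) v = Pi.single k 1 := by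
  decide +kernel


/-- the even elements of the normalizer -/
def N : Subgroup (Perm X) := alternatingGroup X ⊓ normalizer (K : Set (Perm X))

theorem K_le_N : K ≤ N := by
  intro g hg
  refine ⟨mem_alternatingGroup.mpr ?_, Subgroup.le_normalizer hg⟩
  obtain ⟨v, rfl⟩ := hg
  have h : (tr v) ^ 3 = 1 := by
    have h1 : tr v ^ 3 = tr (v + v + v) := by rw [pow_succ, pow_two, ← tr_add, ← tr_add]
    rw [h1]
    have h2 : v + v + v = 0 := by
      funext i
      have : ∀ a : ZMod 3, a + a + a = 0 := by decide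
      exact this _
    rw [h2, tr_zero]
  have h2 := congrArg sign h
  rw [map_pow, map_one] at h2
  generalize sign (tr v) = u at h2
  revert u
  decide

/-- `K ≤ H` has the properties of `3^3 ≤ 3^3:S4`, the normalizer in `A₉` -/
structure LX (H : Type*) [Group H] (J : Subgroup H) : Prop where
  card_dvd : Nat.card H ∣ 1296
  dvd_card : 81 ∣ Nat.card H
  nrm : ∀ h : H, ∀ a ∈ J, h * a * h⁻¹ ∈ J
  cardJ : Nat.card J = 27
  comm : ∀ a ∈ J, ∀ b ∈ J, a * b = b * a
  exp : ∀ a ∈ J, a ^ 3 = 1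
  refl : ∀ g : H, ∀ B : Subgroup H, B ≤ J → Nat.card B = 9 → (∀ b ∈ B, g * b = b * g) → g ∈ J
  inv : ∀ g : H, ¬ ∀ a ∈ J, g * a * g⁻¹ = a⁻¹
  irr : ∀ B : Subgroup H, B ≤ J → (∀ h : H, ∀ b ∈ B, h * b * h⁻¹ ∈ B) → B = ⊥ ∨ B = J

theorem exists_s (f : Fin 3 → Perm (ZMod 3)) : ∃ s : Fin 3 → Bool, (∀ i, sign (f i) = if s i then 1 else -1) ∧
    (fun i => sg (f i)) = fun i => if s i then 1 else -1 := by
  refine ⟨fun i => decide (sign (f i) = 1), fun i => ?_, funext fun i => ?_⟩
  · rcases Int.units_eq_one_or (sign (f i)) with h | h <;> simp [h]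
  · unfold sg
    rcases Int.units_eq_one_or (sign (f i)) with h | h <;> simp [h]

theorem N_spec {g : Perm X} (hg : g ∈ N) : ∃ (σ : Perm (Fin 3)) (f : Fin 3 → Perm (ZMod 3)) (s : Fin 3 → Bool),
    g = gg σ f ∧ (∀ i, sign (f i) = if s i then 1 else -1) ∧
    (sign σ * ∏ i, (if s i then 1 else -1 : ℤˣ)) = 1 ∧
    ∀ v, g * tr v * g⁻¹ = tr (ac σ (fun i => if s i then 1 else -1) v) := by
  obtain ⟨σ, f, rfl⟩ := exists_gg hg.2
  obtain ⟨s, hs1, hs2⟩ := exists_s f
  refine ⟨σ, f, s, rfl, hs1, ?_, fun v => ?_⟩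
  · have h1 := mem_alternatingGroup.mp hg.1
    rw [sign_gg] at h1
    refine Eq.trans ?_ h1
    congr 1
    exact Finset.prod_congr rfl fun i _ => (hs1 i).symm
  · rw [gg_conj, hs2]

theorem exists_N (σ : Perm (Fin 3)) (s : Fin 3 → Bool) (h : (sign σ * ∏ i, (if s i then 1 else -1 : ℤˣ)) = 1) :
    ∃ g ∈ N, ∀ v, g * tr v * g⁻¹ = tr (ac σ (fun i => if s i then 1 else -1) v) := by
  have h1 : ∀ b : Bool, ∃ f : Perm (ZMod 3), sign f = if b then 1 else -1 := by decide +kernel
  choose f hf using fun i => h1 (s i)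
  have h2 : (fun i => sg (f i)) = fun i => if s i then 1 else -1 := by
    funext i
    unfold sg
    rw [hf]
    cases s i <;> simp
  refine ⟨gg σ f, ⟨mem_alternatingGroup.mpr ?_, gg_mem _ _⟩, fun v => by rw [gg_conj, h2]⟩
  rw [sign_gg]
  refine Eq.trans ?_ h
  congr 1
  exact Finset.prod_congr rfl fun i _ => hf i

theorem card_N : Nat.card N ∣ 1296 ∧ 81 ∣ Nat.card N := by
  have h0 : N ≤ normalizer (K : Set (Perm X)) := inf_le_right
  have h1 : Nat.card N * (alternatingGroup X).relIndex (normalizer (K : Set (Perm X))) = 1296 := by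
    rw [← card_normalizer]
    have h2 : Nat.card N = Nat.card ((alternatingGroup X).subgroupOf (normalizer (K : Set (Perm X)))) := by
      refine Nat.card_congr
        { toFun := fun x => ⟨⟨x.1, x.2.2⟩, x.2.1⟩
          invFun := fun x => ⟨x.1.1, x.2, x.1.2⟩
          left_inv := fun x => rfl
          right_inv := fun x => rfl }
    rw [h2]
    exact card_mul_index _
  have h2 : (alternatingGroup X).relIndex (normalizer (K : Set (Perm X))) ∣ 2 := by
    have h3 : (alternatingGroup X).relIndex (normalizer (K : Set (Perm X))) ∣ (alternatingGroup X).index :=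
      relIndex_dvd_index_of_normal _ _
    refine h3.trans ?_
    have h4 := Subgroup.index_ker (sign (α := X))
    have h5 : Nat.card (sign (α := X)).range ∣ Nat.card ℤˣ := card_subgroup_dvd_card _
    have h6 : Nat.card ℤˣ = 2 := by
      rw [Nat.card_eq_fintype_card]; rfl
    rw [h6, ← h4] at h5
    exact h5
  refine ⟨Dvd.intro _ h1, ?_⟩
  rcases (Nat.dvd_prime Nat.prime_two).1 h2 with h3 | h3 <;> rw [h3] at h1 <;> omega

theorem lx : LX N (K.subgroupOf N) where
  card_dvd := card_N.1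
  dvd_card := card_N.2
  nrm := by
    rintro ⟨h, hh⟩ ⟨a, ha⟩ haK
    rw [mem_subgroupOf] at haK ⊢
    exact (Subgroup.mem_normalizer_iff.mp hh.2 a).mp haK
  cardJ := by
    rw [← card_K]
    exact Nat.card_congr (Subgroup.subgroupOfEquivOfLe K_le_N).toEquiv
  comm := by
    rintro ⟨a, ha⟩ haK ⟨b, hb⟩ hbK
    rw [mem_subgroupOf] at haK hbK
    apply Subtype.ext
    obtain ⟨v, hv⟩ := haK
    obtain ⟨w, hw⟩ := hbK
    change a = tr v at hv
    change b = tr w at hw
    change a * b = b * a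
    rw [hv, hw, ← tr_add, ← tr_add, add_comm]
  exp := by
    rintro ⟨a, ha⟩ haK
    rw [mem_subgroupOf] at haK
    apply Subtype.ext
    obtain ⟨v, hv⟩ := haK
    change a = tr v at hv
    change a ^ 3 = 1
    rw [hv, pow_succ, pow_two, ← tr_add, ← tr_add, ← tr_zero]
    congr 1
    funext i
    have : ∀ a : ZMod 3, a + a + a = 0 := by decide
    exact this _
  refl := by
    rintro ⟨g, hg⟩ B hB hc hcomm
    obtain ⟨σ, f, s, rfl, hs, hsign, hconj⟩ := N_spec hg
    by_cases hcase : ∃ i, σ i ≠ i ∨ s i = false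
    · exfalso
      have h1 := chk_refl σ s hsign hcase
      have h2 : ∀ b : B, ∃ v : Fin 3 → ZMod 3, ((b : N) : Perm X) = tr v ∧
          ac σ (fun i => if s i then 1 else -1) v = v := by
        rintro ⟨⟨b, hb⟩, hbB⟩
        obtain ⟨v, hv⟩ := mem_subgroupOf.mp (hB hbB)
        change b = tr v at hv
        refine ⟨v, hv, ?_⟩
        have h3 := congrArg Subtype.val (hcomm _ hbB)
        change gg σ f * b = b * gg σ f at h3
        apply tr_inj
        rw [← hconj, ← hv, h3, mul_inv_cancel_right]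
      choose v hv1 hv2 using h2
      have h3 : Function.Injective fun b : B => (⟨v b, by
          rw [Finset.mem_filter]
          exact ⟨Finset.mem_univ _, hv2 b⟩⟩ :
          {x // x ∈ Finset.univ.filter fun v : Fin 3 → ZMod 3 => ac σ (fun i => if s i then 1 else -1) v = v}) := by
        intro a b hab
        have h4 : v a = v b := congrArg Subtype.val hab
        apply Subtype.ext
        apply Subtype.ext
        rw [hv1, hv1, h4]
      have h4 := Nat.card_le_card_of_injective _ h3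
      rw [hc, Nat.card_eq_fintype_card, Fintype.card_coe] at h4
      omega
    · push Not at hcase
      have hσ : σ = 1 := Equiv.ext fun i => (hcase i).1
      have hf : ∀ i, ∃ t : ZMod 3, ∀ x, f i x = x + t := by
        intro i
        have h1 : sign (f i) = 1 := by
          rw [hs, if_pos (by simpa using (hcase i).2)]
        have h2 : ∀ f : Perm (ZMod 3), sign f = 1 → ∃ t : ZMod 3, ∀ x, f x = x + t := by decide +kernel
        exact h2 _ h1
      choose t ht using hf
      rw [mem_subgroupOf]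
      refine ⟨t, ?_⟩
      ext1 ⟨i, x⟩
      change gg σ f (i, x) = _
      rw [gg_apply, hσ, ht, tr_apply, Perm.one_apply]
  inv := by
    rintro ⟨g, hg⟩ hinv
    obtain ⟨σ, f, s, rfl, hs, hsign, hconj⟩ := N_spec hg
    obtain ⟨v, hv⟩ := chk_inv σ s hsign
    apply hv
    apply tr_inj
    rw [← hconj, tr_neg]
    have hvK : tr v ∈ K := ⟨v, rfl⟩
    have h1 := hinv ⟨tr v, K_le_N hvK⟩ (mem_subgroupOf.mpr hvK)
    exact congrArg Subtype.val h1
  irr := by
    intro B hB hinv
    by_cases hbot : B = ⊥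
    · exact Or.inl hbot
    right
    obtain ⟨⟨⟨b, hb⟩, hbB⟩, hb1⟩ := (Subgroup.ne_bot_iff_exists_ne_one).mp hbot
    obtain ⟨v, hv⟩ := mem_subgroupOf.mp (hB hbB)
    change b = tr v at hv
    subst hv
    have hv0 : v ≠ 0 := by
      rintro rfl
      apply hb1
      apply Subtype.ext
      apply Subtype.ext
      exact tr_zero
    have mem : ∀ w : Fin 3 → ZMod 3, tr w ∈ N := fun w => K_le_N ⟨w, rfl⟩
    have hstep : ∀ (σ : Perm (Fin 3)) (s : Fin 3 → Bool) (w : Fin 3 → ZMod 3),
        (sign σ * ∏ i, (if s i then 1 else -1 : ℤˣ)) = 1 → (⟨tr w, mem w⟩ : N) ∈ B →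
        (⟨tr (ac σ (fun i => if s i then 1 else -1) w), mem _⟩ : N) ∈ B := by
      intro σ s w h1 h2
      obtain ⟨g, hg, hgc⟩ := exists_N σ s h1
      have h3 := hinv ⟨g, hg⟩ _ h2
      have h4 : (⟨g, hg⟩ * ⟨tr w, mem w⟩ * ⟨g, hg⟩⁻¹ : N) = ⟨tr (ac σ (fun i => if s i then 1 else -1) w), mem _⟩ :=
        Subtype.ext (hgc w)
      rwa [h4] at h3
    have hadd : ∀ w w' : Fin 3 → ZMod 3, (⟨tr w, mem w⟩ : N) ∈ B → (⟨tr w', mem w'⟩ : N) ∈ B →
        (⟨tr (w + w'), mem _⟩ : N) ∈ B := by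
      intro w w' h1 h2
      have h3 := B.mul_mem h1 h2
      have h4 : (⟨tr w, mem w⟩ * ⟨tr w', mem w'⟩ : N) = ⟨tr (w + w'), mem _⟩ := Subtype.ext (tr_add w w').symm
      rwa [h4] at h3
    have hk : ∀ k : Fin 3, (⟨tr (Pi.single k 1), mem _⟩ : N) ∈ B := by
      intro k
      obtain ⟨σ, s, σ', s', h1, h2, h3⟩ := chk_irr v hv0 k
      have h4 := hadd _ _ (hstep σ s v h1 hbB) (hstep σ' s' v h2 hbB)
      have h5 : (⟨tr (ac σ (fun i => if s i then 1 else -1) v + ac σ' (fun i => if s' i then 1 else -1) v), mem _⟩ : N)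
          = ⟨tr (Pi.single k 1), mem _⟩ := Subtype.ext (by rw [h3])
      rwa [h5] at h4
    have hzero : (⟨tr 0, mem _⟩ : N) ∈ B := by
      have : (⟨tr 0, mem _⟩ : N) = 1 := Subtype.ext tr_zero
      rw [this]
      exact B.one_mem
    have hk' : ∀ (k : Fin 3) (c : ZMod 3), (⟨tr (Pi.single k c), mem _⟩ : N) ∈ B := by
      intro k c
      have h1 := hk k
      fin_cases c
      · have : (⟨tr (Pi.single k (0 : ZMod 3)), mem _⟩ : N) = ⟨tr 0, mem _⟩ := Subtype.ext (by rw [Pi.single_zero])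
        exact this ▸ hzero
      · exact h1
      · have h2 := hadd _ _ h1 h1
        have : (⟨tr (Pi.single k 1 + Pi.single k 1), mem _⟩ : N) = ⟨tr (Pi.single k (2 : ZMod 3)), mem _⟩ :=
          Subtype.ext (by rw [← Pi.single_add]; rfl)
        rw [this] at h2
        exact h2
    refine le_antisymm hB ?_
    rintro ⟨a, ha⟩ haK
    obtain ⟨w, hw⟩ := mem_subgroupOf.mp haK
    change a = tr w at hw
    subst hw
    have h1 := hadd _ _ (hadd _ _ (hk' 0 (w 0)) (hk' 1 (w 1))) (hk' 2 (w 2))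
    have h2 : (⟨tr (Pi.single 0 (w 0) + Pi.single 1 (w 1) + Pi.single 2 (w 2)), mem _⟩ : N) = ⟨tr w, ha⟩ :=
      Subtype.ext (by
        change tr _ = tr w
        congr 1
        funext i
        fin_cases i <;> simp)
    rwa [h2] at h1

end Cfsg.Agent.H343.A9
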