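import Cfsg.Agent.H343.A9Kill

/-!
# The elimination for S3339: the families (helper343)
-/

set_option autoImplicit false
set_option linter.unusedVariables false
set_option linter.unusedSectionVars false

namespace Cfsg.Agent.H343.A9

open Matrix Subgroup Cfsg Cfsg.Agent.H343.Red
open Cfsg.Agent.H356 Cfsg.Agent.H356.SLTorus Cfsg.Agent.H356.ThreeInv Cfsg.Agent.H356.SLTwo

/-! ### linear -/

theorem kill_psl3a {F : Type*} [Field F] [Fintype F] (h9 : 9 ∣ Fintype.card F - 1)
    (h : C9 (Matrix.ProjectiveSpecialLinearGroup (Fin 3) F)) : False := by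
  obtain ⟨ζ, hζ⟩ := KillPSL.exists_orderOf (F := F) h9
  have hz9 : ζ ^ 9 = 1 := hζ ▸ pow_orderOf_eq_one ζ
  obtain ⟨A, hA, hcA, a, ha, ho⟩ := Diag.exists_nine (KillPSL.lin F 3) hζ
    (KillPSL.dg_Dg ![1, ζ, ζ ^ 8] (by
      rw [Fin.prod_univ_three]
      change 1 * ζ * ζ ^ 8 = 1
      rw [one_mul, ← pow_succ']
      exact hz9))
    (KillPSL.dg_Dg ![ζ, ζ, ζ ^ 7] (by
      rw [Fin.prod_univ_three]
      change ζ * ζ * ζ ^ 7 = 1
      rw [mul_assoc, ← pow_succ', ← pow_succ']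
      exact hz9))
  exact h.not_order hA (by rw [hcA]) ha (n := 2) (by rw [ho]; norm_num) le_rfl

theorem kill_psl3b {F : Type*} [Field F] [Fintype F] (h27 : 27 ∣ Fintype.card F + 1)
    (h : C9 (Matrix.ProjectiveSpecialLinearGroup (Fin 3) F)) : False := by
  have hq : 1 < Fintype.card F := Fintype.one_lt_card
  have hb : 2 * 1 ≤ 3 := by norm_num
  obtain ⟨A, hA, hcA, a, ha, ho⟩ := exists_one (F := F) (KillPSL.three_ne_zero_of (by omega)) (n := 3)
    (by
      rw [Nat.card_eq_fintype_card]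
      have : Fintype.card F ^ 2 - 1 = (Fintype.card F + 1) * (Fintype.card F - 1) := by
        simpa using Nat.sq_sub_sq (Fintype.card F) 1
      rw [this]
      exact dvd_mul_of_dvd_left h27 _)
    (QuotientGroup.mk' (center (Matrix.SpecialLinearGroup (Fin 3) F))) (by rw [QuotientGroup.ker_mk'])
    (KillPSL.f hb 0) (KillPSL.f_injective hb 0)
  exact h.not_order hA (by rw [hcA]; norm_num) ha ho (by norm_num)

theorem kill_psl_blocks {F : Type*} [Field F] [Fintype F] {n : ℕ} (hn : 4 ≤ n) (h9 : 9 ∣ Fintype.card F + 1)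
    (h : C9 (Matrix.ProjectiveSpecialLinearGroup (Fin n) F)) : False := by
  have hb : 2 * 2 ≤ n := hn
  have h3' : (3 : F) ≠ 0 := KillPSL.three_ne_zero_of (by omega)
  have h9' : 3 ^ 2 ∣ Nat.card F ^ 2 - 1 := by
    rw [Nat.card_eq_fintype_card]
    have : Fintype.card F ^ 2 - 1 = (Fintype.card F + 1) * (Fintype.card F - 1) := by
      simpa using Nat.sq_sub_sq (Fintype.card F) 1
    rw [this]
    exact dvd_mul_of_dvd_left h9 _
  obtain ⟨A, hA, hcA, -⟩ := exists_two (F := F) (K := F) h3' h3' h9' h9'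
    (QuotientGroup.mk' (center (Matrix.SpecialLinearGroup (Fin n) F))) (by rw [QuotientGroup.ker_mk'])
    (KillPSL.f hb 0) (KillPSL.f_injective hb 0) (KillPSL.f hb 1) (KillPSL.f_injective hb 1)
    (KillPSL.f_comm hb (by decide))
  exact h.not_eighty hA (by rw [hcA]; norm_num)

theorem kill_psl_six {F : Type*} [Field F] [Fintype F] {n : ℕ} (hn : 6 ≤ n) (h3 : Fintype.card F % 3 ≠ 0)
    (h : C9 (Matrix.ProjectiveSpecialLinearGroup (Fin n) F)) : False :=
  h.not_threeInv (KillPSL.threeInv_of_six (KillPSL.three_ne_zero_of h3) hn)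

/-! ### unitary -/

theorem kill_psu3a {F : Type*} [Field F] [Fintype F] {q : ℕ} (hF : Fintype.card F = q ^ 2) (h9 : 9 ∣ q + 1)
    (h : C9 (PSU 3 F q)) : False := by
  have hd : 9 ∣ Fintype.card F - 1 := by
    rw [hF]
    have : q ^ 2 - 1 = (q + 1) * (q - 1) := by
      simpa using Nat.sq_sub_sq q 1
    rw [this]
    exact dvd_mul_of_dvd_left h9 _
  obtain ⟨ζ, hζ⟩ := KillPSL.exists_orderOf (F := F) hd
  have hz9 : ζ ^ 9 = 1 := hζ ▸ pow_orderOf_eq_one ζ
  have hzq : ζ ^ (q + 1) = 1 := by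
    rw [← orderOf_dvd_iff_pow_eq_one, hζ]
    exact h9
  have hzq' : ∀ j : ℕ, (ζ ^ j) ^ (q + 1) = 1 := fun j => by rw [← pow_mul, mul_comm, pow_mul, hzq, one_pow]
  obtain ⟨A, hA, hcA, a, ha, ho⟩ := Diag.exists_nine (KillPSU.lin hF (by norm_num)) hζ
    (KillPSU.dg_Dg ![1, ζ, ζ ^ 8] (by
      rw [Fin.prod_univ_three]
      change 1 * ζ * ζ ^ 8 = 1
      rw [one_mul, ← pow_succ']
      exact hz9) (by
      intro i
      fin_cases i
      · exact one_pow _
      · exact hzq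
      · exact hzq' 8))
    (KillPSU.dg_Dg ![ζ, ζ, ζ ^ 7] (by
      rw [Fin.prod_univ_three]
      change ζ * ζ * ζ ^ 7 = 1
      rw [mul_assoc, ← pow_succ', ← pow_succ']
      exact hz9) (by
      intro i
      fin_cases i
      · exact hzq
      · exact hzq
      · exact hzq' 7))
  exact h.not_order hA (by rw [hcA]) ha (n := 2) (by rw [ho]; norm_num) le_rfl

theorem kill_psu3b {F : Type*} [Field F] [Fintype F] {q : ℕ} (hF : Fintype.card F = q ^ 2) (h27 : 27 ∣ q - 1)
    (h : C9 (PSU 3 F q)) : False := by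
  have hq1 : 1 < q := by
    by_contra hcon
    have h1 : Fintype.card F ≤ 1 := by rw [hF]; nlinarith
    exact absurd (Fintype.one_lt_card (α := F)) (by omega)
  obtain ⟨K, _, _, hK, hf⟩ := KillPSU.exists_blocks hF
  obtain ⟨f, hi, -⟩ := hf 3
  obtain ⟨A, hA, hcA, a, ha, ho⟩ := exists_one (F := K) (KillPSL.three_ne_zero_of (by rw [hK]; omega)) (n := 3)
    (by
      rw [Nat.card_eq_fintype_card, hK]
      have : q ^ 2 - 1 = (q + 1) * (q - 1) := by
        simpa using Nat.sq_sub_sq q 1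
      rw [this]
      exact dvd_mul_of_dvd_right h27 _)
    (QuotientGroup.mk' (center (SU 3 F q))) (by rw [QuotientGroup.ker_mk'])
    (f 0 (by omega)) (hi _ _)
  exact h.not_order hA (by rw [hcA]; norm_num) ha ho (by norm_num)

theorem kill_psu_blocks {F : Type*} [Field F] [Fintype F] {n q : ℕ} (hF : Fintype.card F = q ^ 2) (hn : 4 ≤ n)
    (h9 : 9 ∣ q - 1) (h : C9 (PSU n F q)) : False := by
  have hq1 : 1 < q := by
    by_contra hcon
    have h1 : Fintype.card F ≤ 1 := by rw [hF]; nlinarith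
    exact absurd (Fintype.one_lt_card (α := F)) (by omega)
  obtain ⟨K, _, _, hK, hf⟩ := KillPSU.exists_blocks hF
  obtain ⟨f, hi, hc⟩ := hf n
  have h3' : (3 : K) ≠ 0 := KillPSL.three_ne_zero_of (by rw [hK]; omega)
  have h9' : 3 ^ 2 ∣ Nat.card K ^ 2 - 1 := by
    rw [Nat.card_eq_fintype_card, hK]
    have : q ^ 2 - 1 = (q + 1) * (q - 1) := by
      simpa using Nat.sq_sub_sq q 1
    rw [this]
    exact dvd_mul_of_dvd_right h9 _
  obtain ⟨A, hA, hcA, -⟩ := exists_two (F := K) (K := K) h3' h3' h9' h9'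
    (QuotientGroup.mk' (center (SU n F q))) (by rw [QuotientGroup.ker_mk'])
    (f 0 (by omega)) (hi _ _) (f 2 (by omega)) (hi _ _) (hc _ _ _ _ (by omega))
  exact h.not_eighty hA (by rw [hcA]; norm_num)

theorem kill_psu_six {F : Type*} [Field F] [Fintype F] {n q : ℕ} (hF : Fintype.card F = q ^ 2) (hn : 6 ≤ n)
    (h3 : q % 3 ≠ 0) (h : C9 (PSU n F q)) : False :=
  h.not_threeInv (KillPSU.threeInv_of_six hF h3 hn)

theorem kill_psu4 {F : Type*} [Field F] [Fintype F] {q : ℕ} (hF : Fintype.card F = q ^ 2) (hq : q % 3 = 2)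
    (h : C9 (PSU 4 F q)) : False := by
  have hd : q + 1 ∣ Fintype.card F - 1 := by
    rw [hF]
    have : q ^ 2 - 1 = (q + 1) * (q - 1) := by
      simpa using Nat.sq_sub_sq q 1
    rw [this]
    exact dvd_mul_right _ _
  have h3d : 3 ∣ q + 1 := by omega
  obtain ⟨ω, hω⟩ := KillPSL.exists_orderOf (F := F) (h3d.trans hd)
  have hω3 : ω ^ 3 = 1 := hω ▸ pow_orderOf_eq_one ω
  have hω1 : ω ≠ 1 := by
    rintro rfl
    rw [orderOf_one] at hω
    norm_num at hω
  have hωq : ω ^ (q + 1) = 1 := by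
    rw [← orderOf_dvd_iff_pow_eq_one, hω]
    exact h3d
  have hωq' : (ω ^ 2) ^ (q + 1) = 1 := by rw [← pow_mul, mul_comm, pow_mul, hωq, one_pow]
  have hpr : ω * ω ^ 2 = 1 := by rw [← pow_succ']; exact hω3
  have hpr2 : ω * ω * ω = 1 := by rw [← hω3]; ring
  obtain ⟨p, m, hp, hm, hpm⟩ := (isPrimePow_nat_iff q).1 ((isPrimePow_pow_iff (by norm_num)).1
    (hF ▸ Fintype.isPrimePow_card_of_field : IsPrimePow (q ^ 2)))
  have : Fact p.Prime := ⟨hp⟩
  have hch : CharP F p := by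
    obtain ⟨p', hp'⟩ := CharP.exists F
    obtain ⟨n, hpp, hn⟩ := FiniteField.card F p'
    have h1 : p ∣ p' := by
      have : p ∣ p' ^ (n : ℕ) := by
        rw [← hn, hF, ← hpm, ← pow_mul]
        exact dvd_pow_self p (by positivity)
      exact hp.dvd_of_dvd_pow this
    rwa [(Nat.prime_dvd_prime_iff_eq hp hpp).1 h1]
  have hneg : ∀ x : F, (-x) ^ q = -(x ^ q) := by
    intro x
    have h3 := (iterateFrobenius F p m).map_neg x
    simp only [iterateFrobenius_def, hpm] at h3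
    exact h3
  refine no_four (KillPSU.lin hF (by norm_num)) hω3 hω1
    (KillPSU.dg_Dg ![ω, ω ^ 2, 1, 1] (by rw [Fin.prod_univ_four]; simpa using hpr)
      (by intro i; fin_cases i; exacts [hωq, hωq', one_pow _, one_pow _]))
    (KillPSU.dg_Dg ![1, 1, ω, ω ^ 2] (by rw [Fin.prod_univ_four]; simpa using hpr)
      (by intro i; fin_cases i; exacts [one_pow _, one_pow _, hωq, hωq']))
    (KillPSU.dg_Dg ![ω, ω, ω, 1] (by rw [Fin.prod_univ_four]; simpa using hpr2)
      (by intro i; fin_cases i; exacts [hωq, hωq, hωq, one_pow _]))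
    (w := Cfsg.Agent.Phan.mk !![0, 1, 0, 0; -1, 0, 0, 0; 0, 0, 1, 0; 0, 0, 0, 1] (by
      simp [Matrix.det_succ_row_zero, Fin.sum_univ_succ, Fin.succAbove]) (by
      intro u v
      unfold hermForm
      simp only [Fin.sum_univ_four, Matrix.mulVec, dotProduct]
      simp
      rw [hneg]
      ring)) rfl h

/-! ### symplectic -/

theorem kill_psp4b {F : Type*} [Field F] [Fintype F] (h9 : 9 ∣ Fintype.card F ^ 2 - 1) (h : C9 (PSp 2 F)) :
    False := by
  have hq : 1 < Fintype.card F := Fintype.one_lt_card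
  have h3 : Fintype.card F % 3 ≠ 0 := by
    intro h0
    have h1 : Fintype.card F ^ 2 % 3 = 0 := by simp [Nat.pow_mod, h0]
    have h2 : 1 ≤ Fintype.card F ^ 2 := Nat.one_le_pow _ _ (by omega)
    omega
  have h3' := KillPSL.three_ne_zero_of h3
  have h9' : 3 ^ 2 ∣ Nat.card F ^ 2 - 1 := by rw [Nat.card_eq_fintype_card]; exact h9
  obtain ⟨A, hA, hcA, -⟩ := exists_two (F := F) (K := F) h3' h3' h9' h9'
    (QuotientGroup.mk' (center (Matrix.symplecticGroup (Fin 2) F))) (by rw [QuotientGroup.ker_mk'])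
    (KillPSp.f 0) (KillPSp.f_injective 0) (KillPSp.f 1) (KillPSp.f_injective 1) (KillPSp.f_comm (by decide))
  exact h.not_eighty hA (by rw [hcA]; norm_num)

theorem kill_psp6 {F : Type*} [Field F] [Fintype F] (h3 : ¬ 3 ∣ Fintype.card F) (h : C9 (PSp 3 F)) : False :=
  h.not_threeInv (KillPSp.threeInv (KillPSL.three_ne_zero_of (F := F) (by omega)) le_rfl)

/-! ### orthogonal -/

theorem kill_oodd {F : Type} [Field F] [Fintype F] (h3 : ¬ 3 ∣ Fintype.card F) (ho : Odd (Fintype.card F))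
    (h : C9 (POmega F (quadFormOdd 3 F))) : False := by
  have h2 : (2 : F) ≠ 0 := by
    intro h2
    have h4 : ringChar F = 2 := by
      have h5 : ringChar F ∣ 2 := (ringChar.spec F 2).1 (by exact_mod_cast h2)
      rcases (Nat.dvd_prime Nat.prime_two).1 h5 with h6 | h6
      · exfalso
        have h7 := (ringChar.spec F 1).2 (by rw [h6])
        simp at h7
      · exact h6
    have h8 := FiniteField.even_card_of_char_two h4
    have h9 := Nat.odd_iff.1 ho
    omega
  exact h.not_threeInv (KillOrth.threeInv_odd (KillPSL.three_ne_zero_of (F := F) (by omega)) h2 le_rfl)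

theorem kill_ominus {F : Type} [Field F] [Fintype F] {a b : F} (h3 : ¬ 3 ∣ Fintype.card F)
    (hab : ∀ z₁ z₂ : F, z₁ ^ 2 + a * z₁ * z₂ + b * z₂ ^ 2 = 0 → z₁ = 0 ∧ z₂ = 0)
    (h : C9 (POmega F (quadFormMinus 3 F a b))) : False :=
  h.not_threeInv (KillOrth.threeInv_minus (KillPSL.three_ne_zero_of (F := F) (by omega)) le_rfl hab)

/-! ### `³D₄` -/

theorem kill_td4 {K : Type*} [Field K] [Fintype K] {q : ℕ} (hq : IsPrimePow q) (hK : Fintype.card K = q ^ 3)
    (h3 : ¬ 3 ∣ q) (h : C9 ↥(Lie.twistedD4 K q)) : False := by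
  obtain ⟨φ, hφ⟩ := Cfsg.Agent.ChevalleyStructure.D4Fixed.exists_frob hq hK
  obtain ⟨p, hp⟩ := CharP.exists K
  have hpr : p.Prime := (CharP.char_is_prime_or_zero K p).resolve_right (CharP.char_ne_zero_of_finite K p)
  have := Fact.mk hpr
  let c : ZMod p →+* K := ZMod.castHom (dvd_refl p) K
  have hcc : ∀ t, φ (c t) = c t := by
    intro t
    have h1 : (φ : K →+* K).comp c = c := Subsingleton.elim _ _
    exact congrFun (congrArg DFunLike.coe h1) t
  have hp3 : p ≠ 3 := by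
    rintro rfl
    obtain ⟨n, hn, h1⟩ := FiniteField.card K 3
    have h2 : 3 ∣ q ^ 3 := by
      rw [← hK, h1]
      exact dvd_pow_self _ n.ne_zero
    exact h3 (Nat.prime_three.dvd_of_dvd_pow h2)
  have hp3' : ¬ 3 ∣ p := fun h => hp3 ((Nat.prime_dvd_prime_iff_eq Nat.prime_three hpr).1 h).symm
  have hK3 : (3 : K) ≠ 0 := by
    intro h
    have h1 : ((3 : ℕ) : K) = 0 := by exact_mod_cast h
    have h2 := (CharP.cast_eq_zero_iff K p 3).1 h1
    exact hp3 ((Nat.prime_dvd_prime_iff_eq hpr Nat.prime_three).1 h2)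
  have hZ3 : (3 : ZMod p) ≠ 0 := by
    intro h
    apply hK3
    have h1 : c 3 = c 0 := congrArg c h
    rw [map_zero, map_ofNat] at h1
    exact h1
  obtain ⟨A, hA, hcard, ⟨a, ha, ho⟩, -⟩ := Cfsg.Agent.H356.SLTorus.exists_two (n := 2) (m := 1) hK3 hZ3
    (by
      rw [Nat.card_eq_fintype_card, hK, ← pow_mul]
      exact Cfsg.Agent.H680.CritD4.nine_dvd h3)
    (by
      rw [Nat.card_zmod]
      exact Cfsg.Agent.H680.CritD4.three_dvd hp3')
    (MonoidHom.id ↥(Lie.twistedD4 K q)) (by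
      rw [MonoidHom.ker_id]
      exact bot_le)
    ((Cfsg.Agent.Cit.HexD4.pb0 φ).codRestrict (Lie.twistedD4 K q) (Cfsg.Agent.Cit.HexD4.pb0_mem hφ)) (by
      intro g h e
      exact Cfsg.Agent.H680.CritD4.pb0_injective φ (congrArg Subtype.val e))
    ((Cfsg.Agent.GH.LowRankD4.hi c).codRestrict (Lie.twistedD4 K q) (Cfsg.Agent.GH.LowRankD4.hi_mem c hφ hcc)) (by
      intro g h e
      exact Cfsg.Agent.H680.CritD4.hi_injective c (congrArg Subtype.val e))
    (fun a b => Subtype.ext (Cfsg.Agent.H680.CritD4.hi_pb0 c φ b a).symm.eq)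
  exact h.not_order hA (by rw [hcard]; norm_num) ha ho le_rfl

/-! ### O'Nan -/

theorem kill_on (h : C9 Cfsg.Spor.ON) : False := by
  have hON : Cfsg.IsON Cfsg.Spor.ON := Cfsg.Agent.S1699.result
  have : Finite Cfsg.Spor.ON := by
    refine Nat.finite_of_card_ne_zero ?_
    rw [hON.2]
    norm_num
  exact h.not_eighty (H680.CritSpor.comm_P hON.1) (CpQuot.ONThree.card_dvd hON.1)

end Cfsg.Agent.H343.A9
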