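import Cfsg.Agent.H343.A9Red
import Cfsg.Agent.H344.List81
import Cfsg.Agent.H356.KillPSL
import Cfsg.Agent.H356.KillPSU
import Cfsg.Agent.H356.KillPSp
import Cfsg.Agent.H356.KillOrth
import Cfsg.Agent.H680.CritD4
import Cfsg.Agent.H680.CritSpor

/-!
# The elimination for S3339 (helper343)
-/

set_option autoImplicit false
set_option linter.unusedVariables false
set_option linter.unusedSectionVars false

namespace Cfsg.Agent.H343.A9

open Matrix Subgroup Cfsg Cfsg.Agent.H343.Red
open Cfsg.Agent.H356 Cfsg.Agent.H356.SLTorus Cfsg.Agent.H356.ThreeInv Cfsg.Agent.H356.SLTwo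

universe u

section gen

variable {Γ : Type*} [Group Γ] [Finite Γ]

theorem C9.congr {A B : Type*} [Group A] [Group B] [Finite A] (e : A ≃* B) (h : C9 A) : C9 B :=
  h.of_injective e.symm.toMonoidHom e.symm.injective

theorem C9.not_threeInv (h : C9 Γ) (h3 : ThreeInv Γ) : False := by
  obtain ⟨A, hA, hc, g, hg⟩ := h3.exists_subgroup
  exact h.inv A hA hc g hg

theorem C9.not_eighty (h : C9 Γ) {A : Subgroup Γ} (hA : ∀ a ∈ A, ∀ b ∈ A, a * b = b * a)
    (hc : 81 ∣ Nat.card A) : False := by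
  have h1 := (h.ab A hA ((by norm_num : 27 ∣ 81).trans hc)).1
  rw [h1] at hc
  norm_num at hc

theorem C9.not_order (h : C9 Γ) {A : Subgroup Γ} (hA : ∀ a ∈ A, ∀ b ∈ A, a * b = b * a)
    (h27 : 27 ∣ Nat.card A) {a : Γ} (ha : a ∈ A) {n : ℕ} (ho : orderOf a = 3 ^ n) (hn : 2 ≤ n) : False := by
  have h1 := (h.ab A hA h27).2 a ha
  have h2 := orderOf_dvd_of_pow_eq_one h1
  rw [ho] at h2
  have h3 := (Nat.pow_dvd_pow_iff_le_right (show 1 < 3 by norm_num)).mp ((pow_one 3).symm ▸ h2 : 3 ^ n ∣ 3 ^ 1)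
  omega

/-- an element inverting one and centralizing two generators -/
theorem C9.no_three (h : C9 Γ) {x y z g : Γ} (hx : x ^ 3 = 1) (hy : y ^ 3 = 1) (hz : z ^ 3 = 1)
    (hxy : x * y = y * x) (hxz : x * z = z * x) (hyz : y * z = z * y)
    (hi : ∀ a b c : ℕ, a < 3 → b < 3 → c < 3 → x ^ a * y ^ b * z ^ c = 1 → a = 0 ∧ b = 0 ∧ c = 0)
    (hgx : g * x * g⁻¹ = x⁻¹) (hgy : g * y = y * g) (hgz : g * z = z * g) : False := by
  obtain ⟨hA, hc⟩ := Diag.card_three hx hy hz hxy hxz hyz hi
  set A := zpowers x ⊔ zpowers y ⊔ zpowers z with hAdef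
  have hxA : x ∈ A := (le_sup_left.trans le_sup_left : zpowers x ≤ A) (mem_zpowers x)
  have hyA : y ∈ A := (le_sup_right.trans le_sup_left : zpowers y ≤ A) (mem_zpowers y)
  have hzA : z ∈ A := (le_sup_right : zpowers z ≤ A) (mem_zpowers z)
  have hgA : ∀ a ∈ A, g * a * g⁻¹ ∈ A := by
    have h1 : A.map (MulAut.conj g).toMonoidHom ≤ A := by
      rw [hAdef, Subgroup.map_sup, Subgroup.map_sup, MonoidHom.map_zpowers, MonoidHom.map_zpowers,
        MonoidHom.map_zpowers]
      refine sup_le (sup_le ?_ ?_) ?_ <;> rw [zpowers_le]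
      · change g * x * g⁻¹ ∈ A
        rw [hgx]
        exact A.inv_mem hxA
      · change g * y * g⁻¹ ∈ A
        rw [hgy, mul_inv_cancel_right]
        exact hyA
      · change g * z * g⁻¹ ∈ A
        rw [hgz, mul_inv_cancel_right]
        exact hzA
    intro a ha
    exact h1 ⟨a, ha, rfl⟩
  have hx1 : x ≠ 1 := fun h1 => by
    have := (hi 1 0 0 (by norm_num) (by norm_num) (by norm_num) (by rw [h1]; simp)).1
    omega
  have hy1 : y ≠ 1 := fun h1 => by
    have := (hi 0 1 0 (by norm_num) (by norm_num) (by norm_num) (by rw [h1]; simp)).2.1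
    omega
  have hzy : z ∉ zpowers y := by
    intro hz'
    rw [← mem_powers_iff_mem_zpowers] at hz'
    obtain ⟨k, hk⟩ := hz'
    have hk2 : y ^ (k % 3) = z := by
      rw [← hk]
      conv_rhs => rw [← Nat.mod_add_div k 3]
      change _ = y ^ (k % 3 + 3 * (k / 3))
      rw [pow_add, pow_mul, hy, one_pow, mul_one]
    have h1 := (hi 0 (k % 3) 2 (by norm_num) (Nat.mod_lt _ (by norm_num)) (by norm_num) (by
      rw [hk2, pow_zero, one_mul, ← pow_succ', hz])).2.2
    omega
  set B := zpowers y ⊔ zpowers z with hB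
  have hBA : B ≤ A := sup_le (by rw [zpowers_le]; exact hyA) (by rw [zpowers_le]; exact hzA)
  have hgB : ∀ b ∈ B, g * b = b * g := by
    intro b hb
    have h1 : B ≤ centralizer ({g} : Set Γ) := sup_le
      (by rw [zpowers_le, mem_centralizer_singleton_iff]; exact hgy.symm)
      (by rw [zpowers_le, mem_centralizer_singleton_iff]; exact hgz.symm)
    exact (mem_centralizer_singleton_iff.mp (h1 hb)).symm
  obtain ⟨k, -, hk⟩ := (Nat.dvd_prime_pow Nat.prime_three).mp (show Nat.card B ∣ 3 ^ 3 by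
    have := Subgroup.card_dvd_of_le hBA
    rw [hc] at this
    exact this)
  have hk2 : 2 ≤ k := by
    have h3 : Nat.card (zpowers y) = 3 := by rw [Nat.card_zpowers]; exact orderOf_eq_prime hy hy1
    by_contra hcon
    have h4 : Nat.card B ≤ Nat.card (zpowers y) := by
      rw [hk, h3]
      calc 3 ^ k ≤ 3 ^ 1 := Nat.pow_le_pow_right (by norm_num) (by omega)
        _ = 3 := by norm_num
    have h5 := Subgroup.eq_of_le_of_card_ge (le_sup_left : zpowers y ≤ B) h4
    apply hzy
    rw [h5]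
    exact (le_sup_right : zpowers z ≤ B) (mem_zpowers z)
  obtain ⟨B', hB', h9⟩ := exists_sub hk hk2
  have h1 := h.refl A hA hc g hgA B' (hB'.trans hBA) (by rw [h9]; norm_num) fun b hb => hgB b (hB' hb)
  have h2 := hA g h1 x hxA
  rw [h2, mul_inv_cancel_right] at hgx
  exact hx1 (eq_one_of hx hgx)

end gen

/-! ### `PSL_2` -/

theorem kill_psl2 {F : Type*} [Field F] [Fintype F]
    (h : C9 (Matrix.ProjectiveSpecialLinearGroup (Fin 2) F))
    (h27 : 27 ∣ Nat.card (Matrix.ProjectiveSpecialLinearGroup (Fin 2) F)) : False := by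
  have hfin : Finite (Matrix.ProjectiveSpecialLinearGroup (Fin 2) F) := by
    unfold Matrix.ProjectiveSpecialLinearGroup; infer_instance
  have hq : 1 < Fintype.card F := Fintype.one_lt_card
  have hc := Num.psl2 hq (Cfsg.Agent.S0243.result (F := F) rfl 2 le_rfl)
  have h81 : 3 ^ 3 ∣ Fintype.card F * (Fintype.card F ^ 2 - 1) := hc ▸ dvd_mul_of_dvd_right h27 _
  by_cases h3 : Fintype.card F % 3 = 0
  · have h1 : Nat.Coprime (3 ^ 3) (Fintype.card F ^ 2 - 1) := by
      refine Num.cop3 ?_ 3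
      have e1 : Fintype.card F ^ 2 % 3 = 0 := by simp [Nat.pow_mod, h3]
      have e2 : 1 ≤ Fintype.card F ^ 2 := Nat.one_le_pow _ _ (by omega)
      omega
    have h2 := h1.dvd_of_dvd_mul_right h81
    let u : Multiplicative F →* Matrix.SpecialLinearGroup (Fin 2) F :=
      { toFun := fun t => ⟨!![1, t.toAdd; 0, 1], by simp [det_fin_two]⟩
        map_one' := by
          apply Subtype.ext
          change !![(1 : F), 0; 0, 1] = 1
          exact one_fin_two.symm
        map_mul' := fun s t => by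
          apply Subtype.ext
          change !![(1 : F), s.toAdd + t.toAdd; 0, 1] = !![1, s.toAdd; 0, 1] * !![1, t.toAdd; 0, 1]
          rw [mul_fin_two]
          simp [add_comm] }
    let π := QuotientGroup.mk' (center (Matrix.SpecialLinearGroup (Fin 2) F))
    let v := π.comp u
    have hv : Function.Injective v := by
      rw [injective_iff_map_eq_one]
      intro t ht
      have h1 : u t ∈ center (Matrix.SpecialLinearGroup (Fin 2) F) := (QuotientGroup.eq_one_iff _).1 ht
      obtain ⟨r, -, hr⟩ := Matrix.SpecialLinearGroup.mem_center_iff.1 h1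
      have h2 : (scalar (Fin 2) r) 0 1 = t.toAdd := by
        rw [hr]
        rfl
      rw [scalar_apply, diagonal_apply_ne _ (by decide)] at h2
      exact Multiplicative.toAdd.injective h2.symm
    have hab : ∀ a ∈ v.range, ∀ b ∈ v.range, a * b = b * a := by
      rintro _ ⟨a, rfl⟩ _ ⟨b, rfl⟩
      rw [← map_mul, ← map_mul, mul_comm]
    have hcard : Nat.card v.range = Fintype.card F := by
      rw [Nat.card_congr (MonoidHom.ofInjective hv).symm.toEquiv, ← Nat.card_eq_fintype_card]
      rfl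
    have h4 := (h.ab v.range hab (by rw [hcard]; exact h2)).1
    rw [hcard] at h4
    obtain ⟨l, hl⟩ := KillPSL.exists_orderOf (F := F) (m := 13) (by rw [h4]; norm_num)
    have hl13 : l ^ 13 = 1 := hl ▸ pow_orderOf_eq_one l
    have hl0 : l ≠ 0 := by
      rintro rfl
      norm_num at hl13
    let d : Matrix.SpecialLinearGroup (Fin 2) F := ⟨!![l, 0; 0, l⁻¹], by simp [det_fin_two, hl0]⟩
    refine h.nrm v.range hab (by rw [hcard, h4]) (π d) ?_ ?_
    · rintro _ ⟨t, rfl⟩
      refine ⟨Multiplicative.ofAdd (l * t.toAdd * l), ?_⟩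
      rw [eq_mul_inv_iff_mul_eq]
      change π _ * π d = π d * π (u t)
      rw [← map_mul, ← map_mul]
      congr 1
      apply Subtype.ext
      change !![1, l * t.toAdd * l; 0, 1] * !![l, 0; 0, l⁻¹] = !![l, 0; 0, l⁻¹] * !![1, t.toAdd; 0, 1]
      rw [mul_fin_two, mul_fin_two]
      congr 1
      simp [hl0, mul_assoc]
    · refine orderOf_eq_prime (hp := ⟨by norm_num⟩) ?_ ?_
      · rw [← map_pow]
        have : d ^ 13 = 1 := by
          apply Subtype.ext
          rw [Matrix.SpecialLinearGroup.coe_pow]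
          change !![l, 0; 0, l⁻¹] ^ 13 = 1
          have e1 : (!![l, 0; 0, l⁻¹] : Matrix (Fin 2) (Fin 2) F) = diagonal ![l, l⁻¹] := by
            ext i j; fin_cases i <;> fin_cases j <;> simp
          rw [e1, diagonal_pow, ← diagonal_one]
          congr 1
          funext i
          fin_cases i
          · simp [hl13]
          · simp [hl13]
        rw [this, map_one]
      · intro h5
        have h6 : d ∈ center (Matrix.SpecialLinearGroup (Fin 2) F) := (QuotientGroup.eq_one_iff _).1 h5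
        have h7 := sq_of_center h6
        rw [pow_two] at h7
        have h8 := congrArg (fun m : Matrix.SpecialLinearGroup (Fin 2) F => (m : Matrix (Fin 2) (Fin 2) F) 0 0) h7
        have h9 : l * l = 1 := by
          have e1 : (!![l, 0; 0, l⁻¹] * !![l, 0; 0, l⁻¹] : Matrix (Fin 2) (Fin 2) F) 0 0 = 1 := h8
          rw [mul_fin_two] at e1
          simpa using e1
        have h10 : l = 1 := by
          have e1 : l ^ 13 = l := by
            calc l ^ 13 = (l * l) ^ 6 * l := by ring
              _ = l := by rw [h9, one_pow, one_mul]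
          rw [← e1, hl13]
        rw [h10, orderOf_one] at hl
        norm_num at hl
  · have h0 := KillPSL.three_ne_zero_of h3
    have h2 : 3 ^ 3 ∣ Fintype.card F ^ 2 - 1 := (Num.cop3 h3 3).dvd_of_dvd_mul_left h81
    obtain ⟨A, hA, hcA, a, ha, ho⟩ := exists_one (F := F) h0 (n := 3) (by rw [Nat.card_eq_fintype_card]; exact h2)
      (QuotientGroup.mk' (center (Matrix.SpecialLinearGroup (Fin 2) F))) (by rw [QuotientGroup.ker_mk'])
      (MonoidHom.id _) Function.injective_id
    exact h.not_order hA (by rw [hcA]; norm_num) ha ho (by norm_num)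

/-! ### monomial elements in dimension four -/

theorem no_four {F : Type*} [Field F] {H : Type*} [Group H] [Finite H] {ι : H →* Matrix (Fin 4) (Fin 4) F}
    (L : Diag.Lin H ι) {ω : F} (h3 : ω ^ 3 = 1) (h1 : ω ≠ 1) {x y z w : H} (hx : Diag.Dg ι x ![ω, ω ^ 2, 1, 1])
    (hy : Diag.Dg ι y ![1, 1, ω, ω ^ 2]) (hz : Diag.Dg ι z ![ω, ω, ω, 1])
    (hw : ι w = !![0, 1, 0, 0; -1, 0, 0, 0; 0, 0, 1, 0; 0, 0, 0, 1]) (hc : C9 (H ⧸ center H)) : False := by
  set π := QuotientGroup.mk' (center H) with hπ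
  have h6 : (ω ^ 2) ^ 3 = 1 := by rw [← pow_mul, mul_comm, pow_mul, h3, one_pow]
  have hone : ∀ {h : H} {t : Fin 4 → F}, Diag.Dg ι h t → (∀ i, t i ^ 3 = 1) → π h ^ 3 = 1 := by
    intro h t hd ht
    rw [← map_pow]
    exact (QuotientGroup.eq_one_iff _).mpr ((hd.pow 3).mem_center L (r := 1) ht)
  have hcm : ∀ {h h' : H} {t t' : Fin 4 → F}, Diag.Dg ι h t → Diag.Dg ι h' t' → π h * π h' = π h' * π h := by
    intro h h' t t' hd hd'
    rw [← map_mul, hd.comm L hd', map_mul]
  have hconj : ∀ {h h' : H} {t t' : Fin 4 → F}, Diag.Dg ι h t → Diag.Dg ι h' t' → t' = ![t 1, t 0, t 2, t 3] →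
      w * h = h' * w := by
    intro h h' t t' hd hd' ht
    apply L.inj
    rw [map_mul, map_mul, hd, hd', hw, ht]
    ext i j
    rw [mul_diagonal, diagonal_mul]
    fin_cases i <;> fin_cases j <;> simp
  refine hc.no_three (x := π x) (y := π y) (z := π z) (g := π w) (hone hx ?_) (hone hy ?_) (hone hz ?_)
    (hcm hx hy) (hcm hx hz) (hcm hy hz) ?_ ?_ ?_ ?_
  · intro i; fin_cases i <;> simp [h3, h6]
  · intro i; fin_cases i <;> simp [h3, h6]
  · intro i; fin_cases i <;> simp [h3]
  · intro a b c ha hb hc' habc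
    rw [← map_pow, ← map_pow, ← map_pow, ← map_mul, ← map_mul] at habc
    have hcen := (QuotientGroup.eq_one_iff _).1 habc
    have hd := ((hx.pow a).mul (hy.pow b)).mul (hz.pow c)
    have e01 := hd.eq_of_scalar L hcen 0 1
    have e02 := hd.eq_of_scalar L hcen 0 2
    have e03 := hd.eq_of_scalar L hcen 0 3
    simp only [Pi.mul_apply, Pi.pow_apply, Matrix.cons_val_zero, Matrix.cons_val_one, Matrix.cons_val, one_pow,
      mul_one, one_mul] at e01 e02 e03
    have hω0 : ω ≠ 0 := by
      rintro rfl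
      norm_num at h3
    have ho : orderOf ω = 3 := orderOf_eq_prime h3 h1
    have red : ∀ i j : ℕ, ω ^ i = ω ^ j → i % 3 = j % 3 := by
      intro i j hij
      have hpr : IsPrimitiveRoot ω 3 := ho ▸ IsPrimitiveRoot.orderOf ω
      refine hpr.pow_inj (Nat.mod_lt _ (by norm_num)) (Nat.mod_lt _ (by norm_num)) ?_
      have hm : ∀ k : ℕ, ω ^ (k % 3) = ω ^ k := by
        intro k
        conv_rhs => rw [← Nat.mod_add_div k 3, pow_add, pow_mul, h3, one_pow, mul_one]
      rw [hm, hm, hij]
    have f1 : ω ^ (a + c) = ω ^ (2 * a + c) := by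
      rw [pow_add, pow_add, pow_mul]; exact e01
    have f2 : ω ^ (a + c) = ω ^ (b + c) := by
      rw [pow_add, pow_add]; exact e02
    have f3 : ω ^ (a + c) = ω ^ (2 * b) := by
      rw [pow_add, pow_mul]; exact e03
    have g1 := red _ _ f1
    have g2 := red _ _ f2
    have g3 := red _ _ f3
    omega
  · have hinv : Diag.Dg ι x⁻¹ ![ω ^ 2, ω, 1, 1] := by
      have := hx.inv
      unfold Diag.Dg at this ⊢
      rw [this]
      congr 1
      have hω0 : ω ≠ 0 := by
        rintro rfl
        norm_num at h3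
      have e1 : ω⁻¹ = ω ^ 2 := by
        rw [inv_eq_of_mul_eq_one_left]
        rw [← pow_succ]; exact h3
      have e2 : (ω ^ 2)⁻¹ = ω := by
        rw [← e1, inv_inv]
      funext i
      fin_cases i <;> simp [e1, e2]
    rw [mul_inv_eq_iff_eq_mul, ← map_inv, ← map_mul, ← map_mul, hconj hx hinv rfl]
  · rw [← map_mul, hconj hy hy rfl, map_mul]
  · rw [← map_mul, hconj hz hz rfl, map_mul]

theorem kill_psl4 {F : Type*} [Field F] [Fintype F] (hq : Fintype.card F % 3 = 1)
    (h : C9 (Matrix.ProjectiveSpecialLinearGroup (Fin 4) F)) : False := by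
  obtain ⟨ω, hω⟩ := KillPSL.exists_orderOf (F := F) (m := 3) (by omega)
  have hω3 : ω ^ 3 = 1 := hω ▸ pow_orderOf_eq_one ω
  have hω1 : ω ≠ 1 := by
    rintro rfl
    rw [orderOf_one] at hω
    norm_num at hω
  have hpr : ω * ω ^ 2 = 1 := by rw [← pow_succ']; exact hω3
  have hpr2 : ω * ω * ω = 1 := by rw [← hω3]; ring
  refine no_four (KillPSL.lin F 4) hω3 hω1
    (KillPSL.dg_Dg ![ω, ω ^ 2, 1, 1] (by rw [Fin.prod_univ_four]; simpa using hpr))
    (KillPSL.dg_Dg ![1, 1, ω, ω ^ 2] (by rw [Fin.prod_univ_four]; simpa using hpr))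
    (KillPSL.dg_Dg ![ω, ω, ω, 1] (by rw [Fin.prod_univ_four]; simpa using hpr2))
    (w := ⟨!![0, 1, 0, 0; -1, 0, 0, 0; 0, 0, 1, 0; 0, 0, 0, 1], by
      simp [Matrix.det_succ_row_zero, Fin.sum_univ_succ, Fin.succAbove]⟩) rfl h

end Cfsg.Agent.H343.A9
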